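import Cfsg.Agent.Frob.Kernel
import Cfsg.Agent.Exceptional.TI
import Cfsg.Prelude.Def_OddOrderLocal

/-!
Normal complements of trivial-intersection subgroups with a normal complement in the normalizer.

* `exists_normal_complement_of_ti`: if `H` is TI, its order is prime to its index in `N = N_G(H)`
  and `N → H` is a retraction, then `H` has a normal complement in `G`;
* `coprime_index_of_ti`: such an `H` is a Hall subgroup of `G`.
-/

set_option autoImplicit false

namespace CfsgLib.Frob

open scoped ComplexConjugate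

variable {G : Type*} [Group G]

/-- A nontrivial TI subgroup with order prime to its index in the normalizer is a Hall subgroup. -/
theorem coprime_index_of_ti [Finite G] {H : Subgroup G} (hTI : Cfsg.IsTISubset (H : Set G))
    (hHall : (Nat.card H).Coprime (H.subgroupOf (Subgroup.normalizer (H : Set G))).index) :
    (Nat.card H).Coprime H.index := by
  by_contra hc
  obtain ⟨p, hp, hpH, hpi⟩ := Nat.Prime.not_coprime_iff_dvd.mp hc
  haveI := Fact.mk hp
  obtain ⟨S⟩ : Nonempty (Sylow p H) := inferInstance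
  set P : Subgroup G := (S : Subgroup H).map H.subtype with hP
  have hPH : P ≤ H := Subgroup.map_subtype_le _
  have hcard : Nat.card P = p ^ (Nat.card H).factorization p := by
    rw [hP, Subgroup.card_map_of_injective H.subtype_injective, S.card_eq_multiplicity]
  have hlt : (Nat.card H).factorization p < (Nat.card G).factorization p := by
    rw [← H.card_mul_index, Nat.factorization_mul Nat.card_pos.ne' Subgroup.index_ne_zero_of_finite,
      Finsupp.add_apply]
    have := hp.factorization_pos_of_dvd Subgroup.index_ne_zero_of_finite hpi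
    omega
  have hdiv : p ∣ (P.subgroupOf (Subgroup.normalizer (P : Set G))).index := by
    obtain ⟨K, hK, hPK⟩ := Sylow.exists_subgroup_card_pow_prime_le p
      (n := (Nat.card H).factorization p) (m := (Nat.card H).factorization p + 1)
      (dvd_trans (pow_dvd_pow p hlt) (Nat.ordProj_dvd _ _)) P hcard (Nat.le_succ _)
    have hidx : P.relIndex K = p := by
      have h := Subgroup.card_mul_index (P.subgroupOf K)
      rw [Nat.card_congr (Subgroup.subgroupOfEquivOfLe hPK).toEquiv, hcard, hK, pow_succ] at h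
      exact Nat.eq_of_mul_eq_mul_left (pow_pos hp.pos _) h
    have hKN : K ≤ Subgroup.normalizer (P : Set G) := by
      have hmin : (P.subgroupOf K).Normal := by
        apply Subgroup.normal_of_index_eq_minFac_card
        rw [hK, Nat.pow_minFac (Nat.succ_ne_zero _), hp.minFac_eq]
        exact hidx
      exact (Subgroup.normal_subgroupOf_iff_le_normalizer hPK).mp hmin
    rw [← hidx]
    exact ⟨_, (Subgroup.relIndex_mul_relIndex P K _ hPK hKN).symm⟩
  -- the normalizer of `P` lies in that of `H`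
  obtain ⟨z, hz, hz1⟩ : ∃ z ∈ P, z ≠ 1 := by
    refine P.bot_or_exists_ne_one.resolve_left fun h => ?_
    rw [h, Subgroup.card_bot] at hcard
    have := hp.factorization_pos_of_dvd Nat.card_pos.ne' hpH
    have : 1 < p ^ (Nat.card H).factorization p := Nat.one_lt_pow this.ne' hp.one_lt
    omega
  have hle : Subgroup.normalizer (P : Set G) ≤ Subgroup.normalizer (H : Set G) := by
    intro g hg
    by_contra hgn
    exact hz1 (hTI g hgn z (hPH hz) (hPH ((Subgroup.mem_normalizer_iff.mp hg z).mp hz)))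
  have h1 : p ∣ P.relIndex (Subgroup.normalizer (H : Set G)) :=
    hdiv.trans ⟨_, (Subgroup.relIndex_mul_relIndex P _ _ Subgroup.le_normalizer hle).symm⟩
  rw [← Subgroup.relIndex_mul_relIndex P H (Subgroup.normalizer (H : Set G)) hPH Subgroup.le_normalizer] at h1
  rcases hp.dvd_mul.mp h1 with h2 | h2
  · have h3 : Nat.card P * P.relIndex H = Nat.card H := by
      have h := Subgroup.card_mul_index (P.subgroupOf H)
      rwa [Nat.card_congr (Subgroup.subgroupOfEquivOfLe hPH).toEquiv] at h
    rw [hcard] at h3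
    apply Nat.pow_succ_factorization_not_dvd Nat.card_pos.ne' hp (n := Nat.card H)
    have h4 := Nat.mul_dvd_mul_left (p ^ (Nat.card H).factorization p) h2
    rw [h3, ← pow_succ] at h4
    exact h4
  · exact hp.not_dvd_one (hHall.gcd_eq_one ▸ Nat.dvd_gcd hpH h2)

/-- Lifting of a character through a TI setup; the character of `G` is constant on `{g | g ^ e = 1}`. -/
theorem exists_ext_char_of_ti [Finite G] {N : Subgroup G} {S : Set G}
    (hS : CfsgLib.Exceptional.TISetup N S) (e : ℕ)
    (hout : ∀ g : G, g ^ e = 1 → ∀ x : G, x * g * x⁻¹ ∉ S)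
    (hconj : ∀ x : G, ∀ h : N, x * h * x⁻¹ ∈ S → x ∈ N)
    {θ : N → ℂ} (hθ : Cfsg.IsIrrCharacter N θ) (hsupp : ∀ x : N, (x : G) ∉ S → θ x = θ 1) :
    ∃ χ : G → ℂ, Cfsg.IsIrrCharacter G χ ∧ (∀ h : N, χ h = θ h) ∧
      ∀ k : G, k ^ e = 1 → χ k = θ 1 := by
  classical
  haveI := Fintype.ofFinite G
  haveI := Fintype.ofFinite N
  haveI := Fintype.ofFinite (Cfsg.IrrCharacter G)
  open CfsgLib.CharBasics in
  set d : ℂ := θ 1 with hd
  set φ : N → ℂ := fun h => θ h - d with hφ
  have hφc : Cfsg.IsClassFunction N φ := fun g x => by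
    simp only [hφ, CfsgLib.CharBasics.isClassFunction (CfsgLib.CharBasics.isCharacter_of_irr hθ) g x]
  have hφs : ∀ x : N, (x : G) ∉ S → φ x = 0 := fun x hx => sub_eq_zero.mpr (hsupp x hx)
  set χ : G → ℂ := fun g => Cfsg.indFun N φ g + d with hχ
  have hzero : ∀ g : G, g ^ e = 1 → Cfsg.indFun N φ g = 0 := fun g hg =>
    CfsgLib.Exceptional.indFun_eq_zero_of_no_conj hφs g (hout g hg)
  have h1e : (1 : G) ^ e = 1 := one_pow e
  have hres : ∀ h : N, χ h = θ h := fun h => by
    show Cfsg.indFun N φ h + d = θ h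
    by_cases hh : (h : G) ∈ S
    · rw [CfsgLib.Exceptional.indFun_apply_of_mem hS hφc hφs h hh]
      simp [hφ]
    · rw [CfsgLib.Exceptional.indFun_eq_zero_of_no_conj hφs, zero_add, hsupp h hh]
      intro x hx
      by_cases hxN : x ∈ N
      · apply hh
        simpa [mul_assoc] using hS.conj_mem x⁻¹ (N.inv_mem hxN) _ hx
      · exact hxN (hconj x h hx)
  have hker : ∀ k : G, k ^ e = 1 → χ k = d := fun k hk => by
    simp only [hχ, hzero k hk, zero_add]
  have hχc : Cfsg.IsClassFunction G χ := fun g x => by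
    simp only [hχ, CfsgLib.Frob.isClassFunction_indFun N φ g x]
  have hsplit : χ = Cfsg.indFun N φ + d • (fun _ : G => (1 : ℂ)) := by
    funext g; simp [hχ]
  have hθsplit : θ = φ + d • (fun _ : N => (1 : ℂ)) := by
    funext g; simp [hφ]
  have hone : Cfsg.IsClassFunction G (fun _ : G => (1 : ℂ)) := fun _ _ => rfl
  -- inner product with any class function
  have hinner : ∀ ψ : G → ℂ, Cfsg.IsClassFunction G ψ → Cfsg.classInner χ ψ =
      Cfsg.classInner φ (fun h : N => ψ h) + d * Cfsg.classInner (fun _ : G => (1 : ℂ)) ψ := by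
    intro ψ hψ
    rw [hsplit, CfsgLib.CharBasics.classInner_add_left, CfsgLib.CharBasics.classInner_smul_left,
      inner_indFun N φ ψ hψ]
  have hnorm : Cfsg.classInner χ χ = 1 := by
    have h1 : Cfsg.classInner χ (fun _ : G => (1 : ℂ)) = Cfsg.classInner θ (fun _ : N => (1 : ℂ)) := by
      rw [hinner _ hone, CfsgLib.CharBasics.classInner_self CfsgLib.CharBasics.isIrrCharacter_one]
      conv_rhs => rw [hθsplit, CfsgLib.CharBasics.classInner_add_left,
        CfsgLib.CharBasics.classInner_smul_left,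
        CfsgLib.CharBasics.classInner_self CfsgLib.CharBasics.isIrrCharacter_one]
    rw [hinner χ hχc, show (fun h : N => χ h) = θ from funext hres,
      CfsgLib.CharBasics.classInner_comm χ, h1, ← CfsgLib.CharBasics.classInner_comm θ,
      ← CfsgLib.CharBasics.classInner_smul_left, ← CfsgLib.CharBasics.classInner_add_left, ← hθsplit]
    exact CfsgLib.CharBasics.classInner_self hθ
  have hint : ∀ ψ : Cfsg.IrrCharacter G, ∃ m : ℤ, Cfsg.classInner χ (ψ : G → ℂ) = m := by
    intro ψ
    have hψ := CfsgLib.CharBasics.isCharacter_of_irr ψ.2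
    obtain ⟨a, ha⟩ := CfsgLib.CharBasics.classInner_characters_nat
      (CfsgLib.CharBasics.isCharacter_of_irr hθ) (CfsgLib.CharBasics.isCharacter_restrict hψ N)
    obtain ⟨b, hb⟩ := CfsgLib.CharBasics.classInner_characters_nat
      (CfsgLib.CharBasics.isCharacter_of_irr (CfsgLib.CharBasics.isIrrCharacter_one (G := N)))
      (CfsgLib.CharBasics.isCharacter_restrict hψ N)
    obtain ⟨c, hc⟩ := CfsgLib.CharBasics.classInner_characters_nat
      (CfsgLib.CharBasics.isCharacter_of_irr (CfsgLib.CharBasics.isIrrCharacter_one (G := G))) hψ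
    refine ⟨(a : ℤ) - (Cfsg.charDegree θ : ℤ) * b + (Cfsg.charDegree θ : ℤ) * c, ?_⟩
    rw [hinner _ (CfsgLib.CharBasics.isClassFunction hψ), hc]
    have e : Cfsg.classInner φ (fun h : N => (ψ : G → ℂ) h) =
        (a : ℂ) - d * b := by
      rw [← ha, ← hb]
      conv_rhs => rw [hθsplit, CfsgLib.CharBasics.classInner_add_left,
        CfsgLib.CharBasics.classInner_smul_left]
      ring
    rw [e, hd, CfsgLib.CharBasics.apply_one (CfsgLib.CharBasics.isCharacter_of_irr hθ)]
    push_cast; ring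
  choose m hm using hint
  have hexp : χ = ∑ ψ : Cfsg.IrrCharacter G, (m ψ : ℂ) • (ψ : G → ℂ) := by
    conv_lhs => rw [CfsgLib.CharBasics.classFun_expand hχc]
    exact Finset.sum_congr rfl fun ψ _ => by rw [hm]
  have hsq : ∑ ψ : Cfsg.IrrCharacter G, m ψ * m ψ = 1 := by
    have h : Cfsg.classInner χ χ = ((∑ ψ : Cfsg.IrrCharacter G, m ψ * m ψ : ℤ) : ℂ) := by
      nth_rewrite 1 [hexp]
      rw [CfsgLib.CharBasics.classInner_sum_left, Int.cast_sum]
      refine Finset.sum_congr rfl fun ψ _ => ?_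
      rw [CfsgLib.CharBasics.classInner_smul_left, CfsgLib.CharBasics.classInner_comm χ, hm,
        Int.cast_mul]
      simp
    rw [hnorm] at h
    exact_mod_cast h.symm
  have h0 : ∃ ψ, m ψ ≠ 0 := by
    by_contra hno
    push Not at hno
    simp [hno] at hsq
  obtain ⟨ψ₀, hψ₀⟩ := h0
  have hsum : m ψ₀ * m ψ₀ + ∑ ψ ∈ Finset.univ.erase ψ₀, m ψ * m ψ = 1 :=
    (Finset.add_sum_erase Finset.univ (fun ψ => m ψ * m ψ) (Finset.mem_univ ψ₀)).trans hsq
  have hpos : 0 < m ψ₀ * m ψ₀ := mul_self_pos.mpr hψ₀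
  have hnn : 0 ≤ ∑ ψ ∈ Finset.univ.erase ψ₀, m ψ * m ψ :=
    Finset.sum_nonneg fun ψ _ => mul_self_nonneg _
  have hrest : ∀ ψ ∈ Finset.univ.erase ψ₀, m ψ = 0 := fun ψ hψ =>
    mul_self_eq_zero.mp ((Finset.sum_eq_zero_iff_of_nonneg
      (fun ψ _ => mul_self_nonneg (m ψ))).mp (by omega) ψ hψ)
  have hone' : m ψ₀ = 1 ∨ m ψ₀ = -1 := mul_self_eq_one_iff.mp (by omega)
  have hχψ : χ = (m ψ₀ : ℂ) • (ψ₀ : G → ℂ) := by
    rw [hexp, ← Finset.add_sum_erase _ _ (Finset.mem_univ ψ₀),
      Finset.sum_eq_zero (fun ψ hψ => by simp [hrest ψ hψ]), add_zero]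
  rcases hone' with h | h
  · exact ⟨χ, by rw [hχψ, h]; simpa using ψ₀.2, hres, hker⟩
  · exfalso
    have h1 := congrFun hχψ 1
    rw [hker 1 h1e, hd, CfsgLib.CharBasics.apply_one (CfsgLib.CharBasics.isCharacter_of_irr hθ),
      Pi.smul_apply, CfsgLib.CharBasics.apply_one (CfsgLib.CharBasics.isCharacter_of_irr ψ₀.2), h] at h1
    have h2 : ((Cfsg.charDegree θ : ℤ) : ℂ) = ((-(Cfsg.charDegree (ψ₀ : G → ℂ) : ℤ) : ℤ) : ℂ) := by
      simpa using h1
    have h3 := Int.cast_inj.mp h2
    have := CfsgLib.CharBasics.charDegree_pos hθ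
    omega

/-- A TI subgroup with order prime to its index in its normalizer and with a normal complement
in its normalizer has a normal complement in the whole group. -/
theorem exists_normal_complement_of_ti [Finite G] {H : Subgroup G}
    (hTI : Cfsg.IsTISubset (H : Set G))
    (hHall : (Nat.card H).Coprime (H.subgroupOf (Subgroup.normalizer (H : Set G))).index)
    (π : Subgroup.normalizer (H : Set G) →* H) (hπ : ∀ x : H, π ⟨x, Subgroup.le_normalizer x.2⟩ = x) :
    ∃ M : Subgroup G, M.Normal ∧ M.IsComplement' H := by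
  classical
  haveI := Fintype.ofFinite G
  haveI := Fintype.ofFinite H
  haveI := Fintype.ofFinite (Cfsg.IrrCharacter H)
  revert π hπ
  set N := Subgroup.normalizer (H : Set G) with hN
  intro π hπ
  have hco := coprime_index_of_ti hTI hHall
  obtain ⟨e, he0, he1⟩ := Nat.chineseRemainder hco.symm 0 1
  have hidx : H.index ∣ e := Nat.modEq_zero_iff_dvd.mp he0
  have heH : ∀ x ∈ H, x ^ e = x := fun x hx => by
    have h1 : e ≡ 1 [MOD orderOf x] := he1.of_dvd (Subgroup.orderOf_dvd_natCard H hx)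
    conv_rhs => rw [← pow_one x]
    exact pow_eq_pow_iff_modEq.mpr h1
  haveI : (H.subgroupOf N).Normal := Subgroup.normal_in_normalizer
  have hrel : (H.subgroupOf N).index ∣ H.index := Subgroup.relIndex_dvd_index_of_le Subgroup.le_normalizer
  -- the `e`-th power is the retraction
  have hpow : ∀ x : N, (x : G) ^ e = (π x : G) := by
    intro x
    have h1 : x ^ e ∈ H.subgroupOf N := by
      obtain ⟨c, hc⟩ := hrel.trans hidx
      rw [hc, pow_mul]
      exact pow_mem (Subgroup.pow_index_mem _ x) c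
    have h2 : π (x ^ e) = ⟨(x : G) ^ e, h1⟩ := hπ ⟨_, h1⟩
    rw [map_pow] at h2
    have h3 := congrArg Subtype.val h2
    rw [SubmonoidClass.coe_pow, heH _ (π x).2] at h3
    exact h3.symm
  set S : Set G := {g | g ∈ N ∧ g ^ e ≠ 1} with hSdef
  have hconj : ∀ x : G, ∀ h : N, x * h * x⁻¹ ∈ S → x ∈ N := by
    intro x h hx
    by_contra hxN
    have h1 : (h : G) ^ e ∈ H := by rw [hpow]; exact (π h).2
    have h2 : x * (h : G) ^ e * x⁻¹ ∈ H := by
      rw [← conj_pow, hpow ⟨_, hx.1⟩]; exact (π _).2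
    exact hx.2 (by rw [conj_pow, hTI x hxN _ h1 h2, mul_one, mul_inv_cancel])
  have hS : CfsgLib.Exceptional.TISetup N S :=
    { subset := fun g hg => hg.1
      conj_mem := fun h hh s hs => ⟨N.mul_mem (N.mul_mem hh hs.1) (N.inv_mem hh), fun h1 => hs.2 (by
        rwa [conj_pow, conj_eq_one_iff] at h1)⟩
      ti := fun g hg s hs h1 => hg (hconj g ⟨s, hs.1⟩ h1) }
  have hout : ∀ g : G, g ^ e = 1 → ∀ x : G, x * g * x⁻¹ ∉ S := fun g hg x h1 =>
    h1.2 (by rw [conj_pow, hg, mul_one, mul_inv_cancel])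
  have hπsurj : Function.Surjective π := fun x => ⟨_, hπ x⟩
  have hsupp : ∀ θ : Cfsg.IrrCharacter H, ∀ x : N, (x : G) ∉ S → (θ : H → ℂ) (π x) = (θ : H → ℂ) (π 1) := by
    intro θ x hx
    have h1 : (x : G) ^ e = 1 := by
      by_contra h
      exact hx ⟨x.2, h⟩
    rw [show π x = 1 from Subtype.ext ((hpow x).symm.trans h1), map_one]
  choose χ hχ hres hker using fun θ : Cfsg.IrrCharacter H =>
    exists_ext_char_of_ti hS e hout hconj (CfsgLib.CharBasics.irr_comp_of_surjective θ.2 π hπsurj) (hsupp θ)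
  choose n ρ _ hρ using hχ
  let M : Subgroup G :=
    { carrier := {g | ∀ θ, ρ θ g = 1}
      one_mem' := fun θ => map_one _
      mul_mem' := fun {a b} ha hb θ => by rw [map_mul, ha θ, hb θ, one_mul]
      inv_mem' := fun {a} ha θ => by
        calc ρ θ a⁻¹ = ρ θ a * ρ θ a⁻¹ := by rw [ha θ, one_mul]
          _ = 1 := by rw [← map_mul, mul_inv_cancel, map_one] }
  have hMn : M.Normal := ⟨fun a ha g θ => by
    rw [map_mul, map_mul, ha θ, mul_one, ← map_mul, mul_inv_cancel, map_one]⟩
  have hMmem : ∀ g : G, g ^ e = 1 → g ∈ M := fun g hg θ => by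
    refine eq_one_of_character_eq _ fun j => ?_
    rw [hρ θ, hker θ 1 (one_pow e)]
    exact hker θ _ (by rw [← pow_mul, mul_comm, pow_mul, hg, one_pow])
  have hMH : M ⊓ H = ⊥ := by
    rw [Subgroup.eq_bot_iff_forall]
    rintro x ⟨hx, hxH⟩
    by_contra hx1
    have hval : ∀ θ : Cfsg.IrrCharacter H, (θ : H → ℂ) ⟨x, hxH⟩ = (θ : H → ℂ) 1 := fun θ => by
      have h1 := hres θ ⟨x, Subgroup.le_normalizer hxH⟩
      have h2 := hres θ 1
      simp only [Function.comp_apply, hπ ⟨x, hxH⟩, map_one] at h1 h2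
      rw [← h1, ← h2, ← hρ θ]
      show LinearMap.trace ℂ _ (ρ θ x) = LinearMap.trace ℂ _ (ρ θ ((1 : N) : G))
      rw [hx θ, OneMemClass.coe_one, map_one (ρ θ)]
    set f : H → ℂ := fun y => if y = 1 then 1 else 0 with hf
    have hfc : Cfsg.IsClassFunction H f := fun a b => by simp [hf]
    have he := CfsgLib.CharBasics.classFun_expand hfc
    have h1 : f ⟨x, hxH⟩ = f 1 := by
      rw [he]; simp only [Finset.sum_apply, Pi.smul_apply, hval]
    have hne : (⟨x, hxH⟩ : H) ≠ 1 := fun h => hx1 (congrArg Subtype.val h)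
    simp [hf, hne] at h1
  refine ⟨M, hMn, Subgroup.isComplement'_of_card_mul_and_disjoint ?_ (disjoint_iff.mpr hMH)⟩
  have hcop : (Nat.card H).Coprime (Nat.card G / Nat.card H) := by
    rwa [← H.card_mul_index, Nat.mul_div_cancel_left _ Nat.card_pos]
  have hdvd : H.index ∣ Nat.card M := by
    rw [Nat.dvd_iff_prime_pow_dvd_dvd]
    intro p k hp hpk
    rcases Nat.eq_zero_or_pos k with rfl | hk
    · simp
    haveI := Fact.mk hp
    obtain ⟨P, hP⟩ := Sylow.exists_subgroup_card_pow_prime p (hpk.trans H.index_dvd_card)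
    rw [← hP]
    refine Subgroup.card_dvd_of_le fun g hg => hMmem g ?_
    have hge := Subgroup.orderOf_dvd_natCard P hg
    rw [hP] at hge
    obtain ⟨c, hc⟩ := (hge.trans hpk).trans hidx
    rw [hc, pow_mul, pow_orderOf_eq_one, one_pow]
  haveI := hMn
  have h1 : Nat.card M ∣ H.index := by
    have h2 := Subgroup.card_mul_index H
    have h3 : M.subgroupOf H = ⊥ := by
      rw [Subgroup.subgroupOf_eq_bot, disjoint_iff]; exact hMH
    have h4 : M.relIndex H = Nat.card H := by rw [Subgroup.relIndex, h3, Subgroup.index_bot]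
    have h5 : Nat.card H ∣ M.index := h4 ▸ Subgroup.relIndex_dvd_index_of_normal M H
    obtain ⟨c, hc⟩ := h5
    have h6 := Subgroup.card_mul_index M
    rw [hc, ← h2] at h6
    exact ⟨c, Nat.eq_of_mul_eq_mul_left Nat.card_pos (h6.symm.trans (by ring))⟩
  rw [Nat.dvd_antisymm h1 hdvd, H.index_mul_card]

end CfsgLib.Frob
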